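import Cfsg.Agent.J2Type.CStruct
import Cfsg.Agent.H802.FusEss
import Cfsg.Agent.H802.FusGroup

/-! # The essential subgroup `2^{1+4}` of `J₃` (S5175, StJ; helper745) -/
set_option autoImplicit false

open Cfsg Cfsg.FusionSystem Cfsg.Agent.J2Type.Model Cfsg.Agent.J2Type.CStruct

namespace Cfsg.Agent.H745.J3E

open Equiv (Perm)

/-! ## Permutations of five letters -/

theorem d1 : ∀ x : Perm (Fin 5), Perm.sign x = 1 → x * x * (x * x) = 1 → x * x = 1 := by decide +kernel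

theorem d2 : ∀ x : Perm (Fin 5), Perm.sign x = 1 → x * x = 1 → x ≠ 1 → ∃ i, x i = i ∧ ∀ j, x j = j → j = i := by
  decide +kernel

theorem d4 : ∀ m : Fin 5, (Finset.univ.filter fun x : Perm (Fin 5) => Perm.sign x = 1 ∧ x * x = 1 ∧ x m = m).card = 4 := by
  decide +kernel

theorem d5 : ((Finset.univ.filter fun s : Fin 5 → ZMod 2 => ∑ i, s i = 0).image
    fun s => (⟨1, s⟩ : SP)).card = 16 := by decide +kernel

section

variable {C : Type*} [Group C] {Q : Subgroup C} {z : C} {v : Fin 5 → C} {ρ : C →* SP} (M : IsModel Q z v ρ)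
include M

theorem sign_one (c : C) : Perm.sign (ρ c).σ = 1 := ((M.range (ρ c)).1 ⟨c, rfl⟩).1

/-- the permutation of the five letters -/
def perm (ρ : C →* SP) : C →* Perm (Fin 5) where
  toFun c := (ρ c).σ
  map_one' := by rw [map_one]; rfl
  map_mul' x y := by rw [map_mul]; rfl

omit M in
theorem perm_apply (ρ : C →* SP) (c : C) : perm ρ c = (ρ c).σ := rfl

theorem mem_Q_iff (c : C) : c ∈ Q ↔ perm ρ c = 1 := M.mem_Q c

theorem Q_conj {c x : C} (hx : x ∈ Q) : c * x * c⁻¹ ∈ Q := by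
  rw [mem_Q_iff M] at hx ⊢
  rw [map_mul, map_mul, hx, mul_one, map_inv, mul_inv_cancel]

theorem card_Q : Nat.card Q = 32 := by
  have h1 := card_fiber M ((Finset.univ.filter fun s : Fin 5 → ZMod 2 => ∑ i, s i = 0).image
    fun s => (⟨1, s⟩ : SP)) (by
      intro g hg
      rw [Finset.mem_image] at hg
      obtain ⟨s, hs, rfl⟩ := hg
      exact ⟨Perm.sign_one, (Finset.mem_filter.1 hs).2⟩)
  rw [d5] at h1
  refine Eq.trans (Nat.card_congr (Equiv.subtypeEquivRight fun x => ?_)) h1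
  rw [M.mem_Q, Finset.mem_image]
  constructor
  · intro hx
    refine ⟨(ρ x).s, Finset.mem_filter.2 ⟨Finset.mem_univ _, ((M.range (ρ x)).1 ⟨x, rfl⟩).2⟩, ?_⟩
    apply SP.ext
    · exact hx.symm
    · rfl
  · rintro ⟨s, -, hs⟩
    rw [← hs]

/-- the centralizer of `Q` is `⟨z⟩` -/
theorem cent_Q {c : C} (hc : ∀ x ∈ Q, c * x = x * c) : c = 1 ∨ c = z := by
  rw [← M.ker c]
  have h1 : ∀ i, (ρ c).s i = 0 ∧ (ρ c).σ i = i := by
    intro i
    have h2 := M.conj c i
    rw [hc _ (M.v_mem i), mul_inv_cancel_right] at h2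
    have h3 : zp z 0 * v i = zp z ((ρ c).s i) * v ((ρ c).σ i) := by rw [zp_zero, one_mul]; exact h2
    obtain ⟨h4, h5⟩ := M.v_inj _ _ _ _ h3
    exact ⟨h4.symm, h5.symm⟩
  apply SP.ext
  · ext i
    rw [(h1 i).2]; rfl
  · funext i
    exact (h1 i).1

/-- `Q / ⟨z⟩` is abelian -/
theorem comm_Q {x y : C} (hx : x ∈ Q) (hy : y ∈ Q) : x * y = y * x ∨ x * y = z * (y * x) := by
  have h1 : ρ (x * y) = ρ (y * x) := by
    rw [map_mul, map_mul]
    have hx' := (M.mem_Q x).1 hx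
    have hy' := (M.mem_Q y).1 hy
    apply SP.ext
    · rw [mul_σ, mul_σ, hx', hy']
    · funext i
      rw [mul_s, mul_s, hx', hy']
      exact add_comm _ _
  obtain ⟨a, ha⟩ := eq_of_rho_eq M h1
  rcases zmod2_cases a with rfl | rfl
  · left; rwa [zp_zero, one_mul] at ha
  · right; rwa [zp_one] at ha

/-- a subgroup of order 128 containing `Q` -/
theorem sylow_perm [Finite C] {T : Subgroup C} (hQT : Q ≤ T) (hT : Nat.card T = 128) :
    ∃ m : Fin 5, ∀ x, x ∈ T ↔ perm ρ x * perm ρ x = 1 ∧ perm ρ x m = m := by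
  classical
  -- the image
  let f : T →* Perm (Fin 5) := (perm ρ).comp T.subtype
  have hker : Nat.card f.ker = 32 := by
    rw [← card_Q M]
    refine Nat.card_congr ⟨fun x => ⟨x.1.1, (mem_Q_iff M _).2 x.2⟩, fun x => ⟨⟨x.1, hQT x.2⟩, (mem_Q_iff M _).1 x.2⟩,
      fun x => rfl, fun x => rfl⟩
  have hfin : Finite T := inferInstance
  have hrange : Nat.card f.range = 4 := by
    have h1 := Subgroup.card_eq_card_quotient_mul_card_subgroup f.ker
    rw [Nat.card_congr (QuotientGroup.quotientKerEquivRange f).toEquiv, hT, hker] at h1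
    omega
  -- elements of the image
  have hmem : ∀ y ∈ f.range, Perm.sign y = 1 ∧ y * y = 1 := by
    rintro y ⟨x, rfl⟩
    have h1 : Perm.sign (f x) = 1 := sign_one M (x : C)
    refine ⟨h1, d1 _ h1 ?_⟩
    have h2 : (⟨f x, ⟨x, rfl⟩⟩ : f.range) ^ Nat.card f.range = 1 := pow_card_eq_one'
    rw [hrange] at h2
    have h3 := congrArg Subtype.val h2
    simp only [Subgroup.coe_pow, Subgroup.coe_one] at h3
    rw [← h3, ← pow_two, ← pow_two, ← pow_mul]
  -- a nontrivial element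
  have hnt : Nontrivial f.range := by
    rw [← Finite.one_lt_card_iff_nontrivial, hrange]; norm_num
  obtain ⟨⟨y, hy⟩, hy1⟩ := exists_ne (1 : f.range)
  have hy1' : y ≠ 1 := fun h => hy1 (Subtype.ext h)
  obtain ⟨m, hm, hmu⟩ := d2 y (hmem y hy).1 (hmem y hy).2 hy1'
  -- everything fixes `m`
  have hfix : ∀ w ∈ f.range, w m = m := by
    intro w hw
    have hcomm : w * y = y * w := by
      have h1 := (hmem _ (mul_mem hw hy)).2
      have h2 := (hmem w hw).2
      have h3 := (hmem y hy).2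
      have e1 : w⁻¹ = w := inv_eq_of_mul_eq_one_right h2
      have e2 : y⁻¹ = y := inv_eq_of_mul_eq_one_right h3
      have e3 : (w * y)⁻¹ = w * y := inv_eq_of_mul_eq_one_right h1
      rw [mul_inv_rev, e1, e2] at e3
      exact e3.symm
    apply hmu
    rw [← Perm.mul_apply, ← hcomm, Perm.mul_apply, hm]
  -- equality by counting
  have hset : ∀ w, w ∈ f.range ↔ Perm.sign w = 1 ∧ w * w = 1 ∧ w m = m := by
    have h1 : (Finset.univ.filter fun w : Perm (Fin 5) => w ∈ f.range) =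
        Finset.univ.filter fun x : Perm (Fin 5) => Perm.sign x = 1 ∧ x * x = 1 ∧ x m = m := by
      apply Finset.eq_of_subset_of_card_le
      · intro w hw
        rw [Finset.mem_filter] at hw ⊢
        exact ⟨hw.1, (hmem w hw.2).1, (hmem w hw.2).2, hfix w hw.2⟩
      · rw [d4 m]
        have h2 : (Finset.univ.filter fun w : Perm (Fin 5) => w ∈ f.range).card = Nat.card f.range := by
          rw [Nat.card_eq_fintype_card, Fintype.card_subtype]
        rw [h2, hrange]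
    intro w
    have h2 := Finset.ext_iff.1 h1 w
    rw [Finset.mem_filter, Finset.mem_filter] at h2
    simpa using h2
  refine ⟨m, fun x => ⟨fun hx => ?_, fun hx => ?_⟩⟩
  · have h1 : perm ρ x ∈ f.range := ⟨⟨x, hx⟩, rfl⟩
    exact ⟨(hmem _ h1).2, hfix _ h1⟩
  · have h1 : perm ρ x ∈ f.range := (hset _).2 ⟨sign_one M x, hx.1, hx.2⟩
    obtain ⟨y, hy⟩ := h1
    have h2 : x * (y : C)⁻¹ ∈ Q := by
      rw [mem_Q_iff M, map_mul, map_inv, mul_inv_eq_one]
      exact hy.symm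
    have h3 := T.mul_mem (hQT h2) y.2
    rwa [inv_mul_cancel_right] at h3

/-- transitivity on the five letters -/
theorem exists_perm (i j : Fin 5) : ∃ c : C, perm ρ c i = j := by
  obtain ⟨σ, h1, h2⟩ := Cfsg.Agent.J2Type.SPFacts.trans_aux i j
  obtain ⟨c, hc⟩ := (M.range ⟨σ, fun _ => 0⟩).2 ⟨h1, by simp⟩
  exact ⟨c, by rw [perm_apply, hc]; exact h2⟩

/-- trivial intersection: `x ∈ T ∖ Q`, `g x g⁻¹ ∈ T` implies `g` normalizes `T` -/
theorem ti {T : Subgroup C} {m : Fin 5} (hm : ∀ x, x ∈ T ↔ perm ρ x * perm ρ x = 1 ∧ perm ρ x m = m) {g x : C}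
    (hx : x ∈ T) (hxQ : x ∉ Q) (hgx : g * x * g⁻¹ ∈ T) : perm ρ g m = m := by
  rw [mem_Q_iff M] at hxQ
  obtain ⟨i, -, hiu⟩ := d2 _ (sign_one M x) ((hm x).1 hx).1 hxQ
  have h1 := ((hm _).1 hgx).2
  rw [map_mul, map_mul, map_inv, Perm.mul_apply, Perm.mul_apply] at h1
  have h2 : perm ρ x ((perm ρ g)⁻¹ m) = (perm ρ g)⁻¹ m := by
    rw [Perm.eq_inv_iff_eq]; exact h1
  have h3 := hiu _ h2
  have h4 := hiu _ ((hm x).1 hx).2
  rw [← h4] at h3
  rw [Perm.inv_eq_iff_eq] at h3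
  exact h3.symm

omit M in
theorem norm_of_fix {T : Subgroup C} {m : Fin 5} (hm : ∀ x, x ∈ T ↔ perm ρ x * perm ρ x = 1 ∧ perm ρ x m = m) {g : C}
    (hg : perm ρ g m = m) : ∀ x ∈ T, g * x * g⁻¹ ∈ T := by
  intro x hx
  have h1 := (hm x).1 hx
  rw [hm]
  have h2 : (perm ρ g)⁻¹ m = m := by rw [Perm.inv_eq_iff_eq]; exact hg.symm
  constructor
  · rw [map_mul, map_mul, map_inv]
    calc perm ρ g * perm ρ x * (perm ρ g)⁻¹ * (perm ρ g * perm ρ x * (perm ρ g)⁻¹)
        = perm ρ g * (perm ρ x * perm ρ x) * (perm ρ g)⁻¹ := by group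
      _ = 1 := by rw [h1.1, mul_one, mul_inv_cancel]
  · rw [map_mul, map_mul, map_inv, Perm.mul_apply, Perm.mul_apply, h2, h1.2, hg]

end

end Cfsg.Agent.H745.J3E
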